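import Mathlib
import Cfsg.Agent.Lib.Char2.Local

/-! Inheritance of a trivial `p`-layer (`p`-constraint) by `p`-local subgroups. -/

set_option autoImplicit false
set_option linter.style.haveILetI false

namespace Cfsg.Agent.Lib.Char2

open Subgroup

variable {G : Type*} [Group G] [Finite G] {p : ℕ} [hp : Fact p.Prime]

theorem charP_quotient_iff : pLayer p G = ⊥ ↔ CharP p (G ⧸ pPrimeCore p G) := by
  rw [Components.pLayer_eq_bot_iff]
  exact ⟨fun h => ⟨h, Components.pPrimeCore_quotient p⟩, fun h => h.1⟩

theorem pLayer_eq_bot_of_charP_image {Y : Type*} [Group Y] [Finite Y] (f : G →* Y)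
    (hf : Function.Surjective f) (hk : (Nat.card f.ker).Coprime p) (hY : CharP p Y) :
    pLayer p G = ⊥ := by
  have h1 : f.ker = pPrimeCore p G := by
    refine le_antisymm (Components.le_pPrimeCore hk) ?_
    rw [← Subgroup.map_eq_bot_iff, eq_bot_iff, ← hY.2]
    exact Components.pPrimeCore_map_le p f hf
  rw [charP_quotient_iff]
  exact charP_of_equiv ((QuotientGroup.quotientKerEquivOfSurjective f hf).symm.trans
    (QuotientGroup.quotientMulEquivOfEq h1)) hY

/-- A subgroup whose image in `G / O_{p'}(G)` has characteristic `p` has trivial `p`-layer. -/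
theorem pLayer_eq_bot_of_map (H : Subgroup G)
    (hY : CharP p ↥(H.map (QuotientGroup.mk' (pPrimeCore p G)))) : pLayer p ↥H = ⊥ := by
  set q := QuotientGroup.mk' (pPrimeCore p G) with hq
  refine pLayer_eq_bot_of_charP_image (q.subgroupMap H) (q.subgroupMap_surjective H) ?_ hY
  have hle : (q.subgroupMap H).ker.map H.subtype ≤ pPrimeCore p G := by
    rintro _ ⟨x, hx, rfl⟩
    have h : q (x : G) = 1 := congrArg Subtype.val (MonoidHom.mem_ker.1 hx)
    exact (QuotientGroup.eq_one_iff _).1 h
  have := (Components.pPrimeCore_coprime (G := G) p).coprime_dvd_left (card_dvd_of_le hle)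
  rwa [card_map_of_injective H.subtype_injective] at this

theorem pLayer_eq_bot_of_equiv {H : Type*} [Group H] [Finite H] (e : G ≃* H) (h : pLayer p G = ⊥) :
    pLayer p H = ⊥ := by
  set q := QuotientGroup.mk' (pPrimeCore p G) with hq
  refine pLayer_eq_bot_of_charP_image (q.comp e.symm.toMonoidHom)
    ((QuotientGroup.mk'_surjective _).comp e.symm.surjective) ?_ (charP_quotient_iff.1 h)
  rw [← MonoidHom.comap_ker, QuotientGroup.ker_mk']
  have hc : Nat.card ↥((pPrimeCore p G).comap e.symm.toMonoidHom) = Nat.card ↥(pPrimeCore p G) :=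
    Nat.card_congr (e.symm.toEquiv.subtypeEquiv fun _ => Iff.rfl)
  rw [hc]
  exact Components.pPrimeCore_coprime p

theorem pLayer_eq_bot_subnormal (h : pLayer p G = ⊥) {N : Subgroup G} (hN : N.IsSubnormal) :
    pLayer p ↥N = ⊥ :=
  pLayer_eq_bot_of_map N (charP_subnormal (charP_quotient_iff.1 h) hN.quotient)

theorem pLayer_eq_bot_normalizer (h : pLayer p G = ⊥) {P : Subgroup G} (hP : IsPGroup p ↥P) :
    pLayer p ↥(normalizer (P : Set G)) = ⊥ := by
  refine pLayer_eq_bot_of_map _ ?_
  rw [Components.map_normalizer_pGroup hP (Components.pPrimeCore_coprime p)]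
  exact charP_iff.2 (Components.charp_normalizer (charP_iff.1 (charP_quotient_iff.1 h)) (hP.map _))

/-- If the centralizer of a normal `p`-subgroup has trivial `p`-layer, so does the group. -/
theorem pLayer_eq_bot_of_centralizer {P : Subgroup G} [P.Normal] (hP : IsPGroup p ↥P)
    (h : pLayer p ↥(centralizer (P : Set G)) = ⊥) : pLayer p G = ⊥ := by
  set C := centralizer (P : Set G) with hC
  set q := QuotientGroup.mk' (pPrimeCore p G) with hq
  have hn : C.IsSubnormal := (inferInstance : C.Normal).isSubnormal
  have hCbar : CharP p ↥(C.map q) := by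
    have hker : (q.subgroupMap C).ker = pPrimeCore p ↥C := by
      rw [← Components.pPrimeCore_subgroupOf hn]
      ext x
      rw [MonoidHom.mem_ker, mem_subgroupOf, Subtype.ext_iff]
      exact QuotientGroup.eq_one_iff _
    exact charP_of_equiv ((QuotientGroup.quotientMulEquivOfEq hker.symm).trans
      (QuotientGroup.quotientKerEquivOfSurjective _ (q.subgroupMap_surjective C))) (charP_quotient_iff.1 h)
  rw [charP_quotient_iff]
  have hPn : (P.map q).Normal := (inferInstance : P.Normal).map _ (QuotientGroup.mk'_surjective _)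
  rw [hC, hq, Components.map_centralizer_pGroup hP (Components.pPrimeCore_coprime p)] at hCbar
  exact charP_of_equiv Subgroup.topEquiv (charP_normalizer_of_centralizer (hP.map q) le_top
    (by rw [normalizer_eq_top]) le_top hCbar)

/-- `N(T)` inherits a trivial `p`-layer from any subgroup containing it. -/
theorem pLayer_eq_bot_normalizer_of_le {M T : Subgroup G} (hT : IsPGroup p ↥T)
    (hle : normalizer (T : Set G) ≤ M) (h : pLayer p ↥M = ⊥) :
    pLayer p ↥(normalizer (T : Set G)) = ⊥ := by
  have hTM : T ≤ M := le_normalizer.trans hle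
  have hn := pLayer_eq_bot_normalizer h (P := T.subgroupOf M) hT.comap_subtype
  have e : normalizer ((T.subgroupOf M : Subgroup ↥M) : Set ↥M) = (normalizer (T : Set G)).subgroupOf M := by
    ext g
    rw [mem_subgroupOf, mem_normalizer_iff, mem_normalizer_iff]
    constructor
    · intro hg x
      constructor
      · intro hx
        exact (hg ⟨x, hTM hx⟩).1 hx
      · intro hx
        have hxM : x ∈ M := by
          have := M.mul_mem (M.mul_mem (M.inv_mem g.2) (hTM hx)) g.2
          simpa [mul_assoc] using this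
        exact (hg ⟨x, hxM⟩).2 hx
    · intro hg x
      exact hg x
  rw [e] at hn
  exact pLayer_eq_bot_of_equiv (subgroupOfEquivOfLe hle) hn

/-- If `T ≤ X`, `C(T) ≤ X` and `X` has trivial `p`-layer, so does `N(T)`. -/
theorem pLayer_eq_bot_normalizer_of_centralizer {X T : Subgroup G} (hT : IsPGroup p ↥T) (hTX : T ≤ X)
    (hCX : centralizer (T : Set G) ≤ X) (h : pLayer p ↥X = ⊥) :
    pLayer p ↥(normalizer (T : Set G)) = ⊥ := by
  set T' := T.subgroupOf X with hT'
  have hn := pLayer_eq_bot_normalizer h (P := T') hT.comap_subtype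
  set Y := normalizer (T' : Set ↥X) with hY
  set C' := centralizer (T' : Set ↥X) with hC'
  have hC'' := pLayer_eq_bot_subnormal hn (N := C'.subgroupOf Y) (Subgroup.normal_subgroupOf_centralizer_normalizer (T' : Set ↥X)).isSubnormal
  have eC : C' = (centralizer (T : Set G)).subgroupOf X := by
    ext c
    rw [hC', mem_subgroupOf, mem_centralizer_iff, mem_centralizer_iff]
    exact ⟨fun hc t ht => congrArg Subtype.val (hc ⟨t, hTX ht⟩ ht), fun hc t ht => Subtype.ext (hc t ht)⟩
  have hCT : pLayer p ↥(centralizer (T : Set G)) = ⊥ :=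
    pLayer_eq_bot_of_equiv (((subgroupOfEquivOfLe (centralizer_le_normalizer _)).trans
      (MulEquiv.subgroupCongr eC)).trans (subgroupOfEquivOfLe hCX)) hC''
  -- now work inside `N(T)`
  set N := normalizer (T : Set G) with hN
  haveI : (T.subgroupOf N).Normal := normal_subgroupOf_of_le_normalizer le_rfl
  refine pLayer_eq_bot_of_centralizer (P := T.subgroupOf N) hT.comap_subtype ?_
  have eN : centralizer ((T.subgroupOf N : Subgroup ↥N) : Set ↥N) = (centralizer (T : Set G)).subgroupOf N := by
    ext c
    rw [mem_subgroupOf, mem_centralizer_iff, mem_centralizer_iff]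
    exact ⟨fun hc t ht => congrArg Subtype.val (hc ⟨t, le_normalizer ht⟩ ht), fun hc t ht => Subtype.ext (hc t ht)⟩
  rw [eN]
  exact pLayer_eq_bot_of_equiv (subgroupOfEquivOfLe (centralizer_le_normalizer _)).symm hCT

end Cfsg.Agent.Lib.Char2
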